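import Cfsg.Agent.H316.HT.Defs
import Cfsg.Agent.H133.PB.Basic
import Cfsg.Agent.Blocks.Local

/-!
# Tools for the rows of S4933 (helper825)

* `mem_of_table` : membership in the principal block from a table of values and the lengths of the classes;
* `rowIn_of`     : `RowIn p S` from a member of the principal block of a group isomorphic to `S`;
* `rowOut_of`    : `RowOut p S` is vacuous when the automorphisms of `p`-power order are inner.
-/

set_option autoImplicit false

namespace Cfsg.Agent.H825.HT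

open Cfsg Subgroup Cfsg.Agent.Characters.Core Cfsg.Agent.H316.HT

universe u v

/-- an integer divisible by `p` lies in the local ideal -/
theorem memLocalIdeal_int {p : ℕ} {M : Ideal AlgInt} (hM : IsPModular p M) (q : ℤ) :
    MemLocalIdeal M (((p : ℤ) * q : ℤ) : ℂ) := by
  have h1 := Cfsg.Agent.Blocks.LocalRing.memLocalIdeal_mul_left hM
    (Cfsg.Agent.Blocks.LocalRing.memLocalRing_of_isIntegral hM (isIntegral_algebraMap (R := ℤ) (A := ℂ) (x := q)))
    ((Cfsg.Agent.Blocks.LocalRing.memLocalIdeal_natCast_iff hM (n := p)).2 dvd_rfl)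
  have h2 : ((p : ℤ) * q : ℤ) = ((q : ℤ) : ℂ) * (p : ℂ) := by
    push_cast
    ring
  rw [h2]
  exact h1

/-- **membership in the principal block from a table** -/
theorem mem_of_table {G : Type u} [Group G] {p : ℕ} {M : Ideal AlgInt} (hM : IsPModular p M) (χ : IrrCharacter G)
    {d : ℤ} (hd : (χ : G → ℂ) 1 = d) {ι : Type v} (x : ι → G) (hx : ∀ g, ∃ i, IsConj (x i) g) (s : ι → ℕ) (v : ι → ℤ)
    (hs : ∀ i, (centralizer ({x i} : Set G)).index = s i) (hv : ∀ i, (χ : G → ℂ) (x i) = v i)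
    (h : ∀ i, ((p : ℤ) * d) ∣ (s i : ℤ) * (v i - d)) : χ ∈ principalBlock M G := by
  intro g
  obtain ⟨i, hi⟩ := hx g
  obtain ⟨q, hq⟩ := h i
  have hd0 : (d : ℂ) ≠ 0 := by
    rw [← hd]
    exact Cfsg.Agent.Blocks.Basic.irr_one_ne_zero χ.2
  have h1 : (centralizer ({g} : Set G)).index = s i := by
    rw [← hs i, Cfsg.Agent.Blocks.Basic.index_centralizer_isConj hi]
  have h2 : (χ : G → ℂ) g = v i := by
    rw [← hv i, Cfsg.Agent.Blocks.Basic.irr_isConj χ.2 hi]
  have h3 : centralChar (fun _ : G => (1 : ℂ)) g - centralChar (χ : G → ℂ) g = (((p : ℤ) * (-q) : ℤ) : ℂ) := by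
    have h4 := congrArg (fun z : ℤ => (z : ℂ)) hq
    push_cast at h4
    rw [centralChar, centralChar, h1, h2, hd]
    push_cast
    field_simp
    linear_combination -h4
  rw [h3]
  exact memLocalIdeal_int hM (-q)

/-- transport of a member of the principal block -/
theorem rowIn_of {S : Type u} [Group S] {T : Type v} [Group T] {p : ℕ} (e : S ≃* T)
    (h : ∀ M : Ideal AlgInt, IsPModular p M → ∃ χ : IrrCharacter T, χ ∈ principalBlock M T ∧
      (charDegree (χ : T → ℂ)).factorization p = 1) : RowIn p S := by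
  intro M hM P a ha _
  have : M.IsPrime := Cfsg.Agent.Blocks.Local.isPrime_of_isPModular hM
  obtain ⟨χ, h1, h2⟩ := h M hM
  refine ⟨_, Cfsg.Agent.H133.PB.mem_principalBlock_comp e.toMonoidHom e.surjective h1, ?_⟩
  have h3 : vd p ((χ : T → ℂ) ∘ e.toMonoidHom) = 1 := by
    rw [← h2]
    unfold vd charDegree
    rw [Function.comp_apply, map_one]
  show 0 < vd p ((χ : T → ℂ) ∘ e.toMonoidHom) ∧ vd p ((χ : T → ℂ) ∘ e.toMonoidHom) ≤ a
  rw [h3]
  exact ⟨one_pos, ha⟩

/-- **no outer `p`-automorphisms** -/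
theorem le_of_inner {p : ℕ} {A : Type u} [Group A] [Finite A] (N : Subgroup A) [N.Normal]
    (hC : centralizer (N : Set A) = ⊥) (P : Subgroup A) (hP : IsPGroup p P)
    (hin : ∀ (a : MulAut N) (k : ℕ), a ^ p ^ k = 1 → a ∈ (MulAut.conj : N →* MulAut N).range) : P ≤ N := by
  intro x hx
  obtain ⟨k, hk⟩ := hP ⟨x, hx⟩
  have hk' : x ^ p ^ k = 1 := congrArg Subtype.val hk
  obtain ⟨n, hn⟩ := hin (MulAut.conjNormal (H := N) x) k (by rw [← map_pow, hk', map_one])
  have h1 : (n : A)⁻¹ * x ∈ centralizer (N : Set A) := by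
    rw [mem_centralizer_iff]
    intro y hy
    have h2 := congrArg (fun f : MulAut N => ((f ⟨y, hy⟩ : N) : A)) hn
    simp only [MulAut.conj_apply, MulAut.conjNormal_apply, Subgroup.coe_mul, InvMemClass.coe_inv] at h2
    have h3 : (n : A) * y * (n : A)⁻¹ = x * y * x⁻¹ := h2
    calc y * ((n : A)⁻¹ * x) = (n : A)⁻¹ * ((n : A) * y * (n : A)⁻¹) * x := by group
      _ = (n : A)⁻¹ * (x * y * x⁻¹) * x := by rw [h3]
      _ = (n : A)⁻¹ * x * y := by group
  rw [hC, mem_bot] at h1
  have h2 : x = (n : A) := by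
    rw [inv_mul_eq_one] at h1
    exact h1.symm
  rw [h2]
  exact n.2

theorem rowOut_of {S : Type v} [Group S] {p : ℕ}
    (hin : ∀ (N : Type) [Group N], Nonempty (N ≃* S) → ∀ (a : MulAut N) (k : ℕ), a ^ p ^ k = 1 →
      a ∈ (MulAut.conj : N →* MulAut N).range) : RowOut p S := by
  intro A _ _ N _ e hC M hM P a ha _ hP
  exact absurd (le_of_inner N hC P P.isPGroup' (hin N e)) hP

end Cfsg.Agent.H825.HT
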